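import Cfsg.Agent.Lib.EQ.Ind
import Cfsg.Agent.Lib.PLocal.JordanField
import Cfsg.Agent.Lib.PLocal.FFSep
import Cfsg.Agent.Lib.PLocal.Section
import Cfsg.Agent.Lib.Coprime.FT

/-! A coprime group acting on a quadratic pair centralises a section `PSL₂(k)`. -/

set_option autoImplicit false

namespace Cfsg.Lib.EQ
open Cfsg.Lib.QuadPair Cfsg.Lib.Transfer Cfsg.Lib.Root Module LinearMap
open scoped Cfsg.Lib.Transfer commutatorElement MatrixGroups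

lemma two_classes {E : Type*} [Neg E] {S : Set E} (hS : S.Finite) {r : E → E → Prop} (h1 : ∀ a b, r a b → r b a)
    (h2 : ∀ a b c, r a b → r b c → r a c)
    (h : ∀ a ∈ S, ∃ f : E → E, (∀ y ∈ S, f y ∈ S ∧ r a (f y)) ∧ ∀ y ∈ S, ∀ y' ∈ S, f y' = f y → y' = y ∨ y' = -y)
    {a b c : E} (ha : a ∈ S) (hb : b ∈ S) (hc : c ∈ S) : r a b ∨ r b c ∨ r a c := by
  classical
  by_contra hne
  push Not at hne
  have key : ∀ a ∈ S, hS.toFinset.card ≤ 2 * (hS.toFinset.filter (r a)).card := fun a ha => by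
    obtain ⟨f, h3, h4⟩ := h a ha
    refine Finset.card_le_mul_card_image_of_maps_to (f := f) (fun y hy => ?_) 2 fun z _ => ?_
    · simpa using h3 y (by simpa using hy)
    rcases (hS.toFinset.filter fun y => f y = z).eq_empty_or_nonempty with e | ⟨y, hy⟩
    · simp [e]
    refine (Finset.card_le_card (t := {y, -y}) fun y' hy' => ?_).trans Finset.card_le_two
    simp only [Finset.mem_filter, Set.Finite.mem_toFinset] at hy hy'
    simpa using h4 y hy.1 y' hy'.1 (hy'.2.trans hy.2.symm)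
  have d : ∀ {a b}, ¬ r a b → Disjoint (hS.toFinset.filter (r a)) (hS.toFinset.filter (r b)) := fun e =>
    Finset.disjoint_filter.2 fun x _ h3 h4 => e (h2 _ _ _ h3 (h1 _ _ h4))
  have h5 := Finset.card_le_card (Finset.union_subset (Finset.union_subset (Finset.filter_subset (r a) hS.toFinset)
    (Finset.filter_subset (r b) _)) (Finset.filter_subset (r c) _))
  rw [Finset.card_union_of_disjoint (Finset.disjoint_union_left.2 ⟨d hne.2.2, d hne.2.1⟩),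
    Finset.card_union_of_disjoint (d hne.1)] at h5
  have := key a ha
  have := key b hb
  have := key c hc
  have : 0 < hS.toFinset.card := Finset.card_pos.2 ⟨a, by simpa using ha⟩
  omega

lemma hasSection_of_ker_le {Z X Y : Type*} [Group Z] [Group X] [Group Y] (φ : Z →* Y) (f : Z →* X)
    (hf : Function.Surjective f) (h : φ.ker ≤ f.ker) : PLocal.HasSection X Y :=
  ⟨φ.range, φ.rangeRestrict.liftOfSurjective φ.rangeRestrict_surjective ⟨f, by rwa [MonoidHom.ker_rangeRestrict]⟩,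
    fun x => by
      obtain ⟨z, rfl⟩ := hf x
      exact ⟨φ.rangeRestrict z, MonoidHom.liftOfRightInverse_comp_apply ..⟩⟩

variable {k : Type*} [Field k] {M : Type*} [AddCommGroup M] [Module k M]
variable {G A N : Subgroup (End k M)ˣ} {α β χ υ ξ ζ ζ' : End k M} {g : (End k M)ˣ}
variable {p : ℕ} [hp : Fact p.Prime]
variable [FiniteDimensional k M]

omit hp in
lemma proj_eq_of_mem (hχ : Qd G χ) (ht : Trip χ υ) (ht' : Trip ξ β) (hξ : ξ ∈ RS G χ) (h0 : ξ ≠ 0) (hβ : β ∈ RS G υ) :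
    ξ * β = χ * υ := by
  have h1 : (ξ * β - 1) * χ = 0 := RS_left (hχ.mem_symm hξ h0) (by rw [sub_mul, ht'.aba]; simp)
  have h2 : β * (χ * υ - 1) = 0 := RS_right hβ (by rw [mul_sub, ← mul_assoc, ht.bab]; simp)
  rw [sub_mul, one_mul, sub_eq_zero] at h1
  rw [mul_sub, mul_one, sub_eq_zero] at h2
  rw [← h2, ← mul_assoc, ← mul_assoc, h1]

variable (hk : Big k) (hχ : Qd G χ) (hυ : Qd G υ) (ht : Trip χ υ)
include hk hχ hυ ht

omit hp in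
lemma exists_partner_mem (hξ : ξ ∈ RS G χ) (h0 : ξ ≠ 0) :
    ∃ β ∈ RS G υ, β ≠ 0 ∧ Trip ξ β ∧ ξ * β = χ * υ ∧ β * ξ = υ * χ := by
  obtain ⟨β, h1, h2, h3⟩ := exists_trip hk (hχ.of_mem hξ h0) hυ
    (opp_all hk hχ hυ (ht.aba.symm ▸ hχ.ne) hξ hυ.toQ0.mem_RS h0 hυ.ne)
  exact ⟨β, h1, h2, h3, proj_eq_of_mem hχ ht h3 hξ h0 h1, proj_eq_of_mem hυ ht.symm h3.symm h1 h2 hξ⟩

omit hp in
lemma comm_RS [Finite (End k M)] (hζ : ζ ∈ RS G χ) (hζ' : ζ' ∈ RS G χ) : ζ * υ * ζ' = ζ' * υ * ζ := by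
  have he : IsIdempotentElem (χ * υ) := by rw [IsIdempotentElem, ← mul_assoc, ht.aba]
  have a1 : ∀ ζ ∈ RS G χ, χ * υ * ζ = ζ := fun ζ h => by
    have := RS_left (x := χ * υ - 1) h (by rw [sub_mul, ht.aba]; simp)
    rwa [sub_mul, one_mul, sub_eq_zero] at this
  have a2 : ∀ ζ ∈ RS G χ, ζ * (υ * χ) = ζ := fun ζ h => by
    have := RS_right (x := υ * χ - 1) h (by rw [mul_sub, ← mul_assoc, ht.aba]; simp)
    rwa [mul_sub, mul_one, sub_eq_zero] at this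
  have a3 : ∀ ζ ∈ RS G χ, ζ * υ ∈ Subsemigroup.corner (χ * υ) := fun ζ h =>
    (Subsemigroup.mem_corner_iff he).2 ⟨by rw [← mul_assoc, a1 ζ h], by rw [mul_assoc, ← mul_assoc υ, ht.bab]⟩
  have : Finite he.Corner := inferInstanceAs (Finite (Subsemigroup.corner (χ * υ)))
  let F : AddSubgroup he.Corner :=
    { carrier := {x | ∃ ζ ∈ RS G χ, x.1 = ζ * υ}
      zero_mem' := ⟨0, zero_mem _, by rw [zero_mul]; rfl⟩
      add_mem' := by
        rintro x y ⟨a, ha, e⟩ ⟨b, hb, e'⟩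
        exact ⟨a + b, add_mem ha hb, by rw [add_mul, ← e, ← e']; rfl⟩
      neg_mem' := by
        rintro x ⟨a, ha, e⟩
        exact ⟨-a, neg_mem ha, by rw [neg_mul, ← e]; rfl⟩ }
  have hF : PLocal.Jordan.InvClosed F := ⟨⟨χ, hχ.toQ0.mem_RS, rfl⟩, by
    rintro f ⟨a, ha, e⟩ h0
    obtain ⟨b, h1, -, h3, h4, h5⟩ := exists_partner_mem hk hχ hυ ht ha fun e' => h0 (Subtype.ext (by
      rw [e, e', zero_mul]; rfl))
    have h6 := mem_top hk hχ.toQ0 h1.1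
    have h7 : χ * b * χ * υ = χ * b := by rw [mul_assoc, ← h4, mul_assoc χ, ← mul_assoc b, h3.bab]
    refine ⟨⟨_, a3 _ h6⟩, ⟨_, h6, rfl⟩, Subtype.ext ?_, Subtype.ext ?_⟩
    · change χ * b * χ * υ * f.1 = χ * υ
      rw [h7, e, ← mul_assoc, mul_assoc χ, h5, ← mul_assoc, ht.aba]
    · change f.1 * (χ * b * χ * υ) = χ * υ
      rw [h7, e, mul_assoc, ← mul_assoc υ, ← mul_assoc, a2 a ha, h4]⟩
  have h1 : ζ * υ * (ζ' * υ) = ζ' * υ * (ζ * υ) :=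
    congrArg Subtype.val (hF.mul_comm (a := ⟨_, a3 ζ hζ⟩) (b := ⟨_, a3 ζ' hζ'⟩) ⟨ζ, hζ, rfl⟩ ⟨ζ', hζ', rfl⟩)
  have := congrArg (· * χ) h1
  simpa only [mul_assoc, a2 ζ hζ, a2 ζ' hζ'] using this

omit hp in
lemma exists_cj_eq [Finite (End k M)] (hN : RT G ≤ N) (hG : N ≤ G) (hg : g ∈ Subgroup.normalizer (N : Set (End k M)ˣ))
    (hg' : g ∈ Subgroup.normalizer (RG G χ : Set (End k M)ˣ)) (ho : Odd (orderOf g)) :
    ∃ n ∈ N ⊓ Subgroup.normalizer (RG G χ : Set (End k M)ˣ), cj n χ = cj g χ := by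
  set K := N ⊓ Subgroup.normalizer (RG G χ : Set (End k M)ˣ)
  have hK : ∀ n ∈ K, g * n * g⁻¹ ∈ K := fun n hn =>
    ⟨(Subgroup.mem_normalizer_iff.1 hg n).1 hn.1, Subgroup.mul_mem _ (Subgroup.mul_mem _ hg' hn.2) (Subgroup.inv_mem _ hg')⟩
  have hK' : ∀ n ∈ K, g⁻¹ * n * g ∈ K := fun n hn =>
    ⟨(Subgroup.mem_normalizer_iff''.1 hg n).1 hn.1, Subgroup.mul_mem _ (Subgroup.mul_mem _ (Subgroup.inv_mem _ hg') hn.2) hg'⟩
  have h1 := cj_mem_of_norm hg' hχ.toQ0.mem_RS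
  have h2 : cj g χ ≠ 0 := cj_eq_zero.not.2 hχ.ne
  have hf : ∀ ξ ∈ {ξ | ξ ∈ RS G χ ∧ ξ ≠ 0}, ∃ f : End k M → End k M,
      (∀ y ∈ {ξ | ξ ∈ RS G χ ∧ ξ ≠ 0}, f y ∈ {ξ | ξ ∈ RS G χ ∧ ξ ≠ 0} ∧ ∃ n ∈ K, cj n ξ = f y) ∧
      ∀ y ∈ {ξ | ξ ∈ RS G χ ∧ ξ ≠ 0}, ∀ y' ∈ {ξ | ξ ∈ RS G χ ∧ ξ ≠ 0}, f y' = f y → y' = y ∨ y' = -y := fun ξ hξ => by
    obtain ⟨β, b1, b2, b3, b4, b5⟩ := exists_partner_mem hk hχ hυ ht hξ.1 hξ.2
    have hξq := hχ.of_mem hξ.1 hξ.2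
    have hβq := hυ.of_mem b1 b2
    have e0 := hχ.RS_eq hξ.1 hξ.2
    have ne : ∀ ζ ∈ RS G χ, ∀ ζ' ∈ RS G χ, ζ * β * ζ' = 0 → ζ = 0 ∨ ζ' = 0 := fun ζ c1 ζ' c2 e => by
      by_contra hne
      push Not at hne
      have d1 := RS_left (hχ.RS_eq c2 hne.2 ▸ hξ.1) e
      rw [mul_assoc] at d1
      have d2 := RS_right (hχ.RS_eq c1 hne.1 ▸ hξ.1) d1
      exact hξ.2 (by rw [← b3.aba, mul_assoc, d2])
    refine ⟨fun ζ => ζ * β * ζ, fun ζ hζ => ?_, fun ζ hζ ζ' hζ' e => ?_⟩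
    · have c0 : ζ * β * ζ ∈ RS G χ := hχ.RS_eq hζ.1 hζ.2 ▸ mem_top hk hζ.1.1 b1.1
      obtain ⟨β', c1, c2, c3, -⟩ := exists_partner_mem hk hχ hυ ht hζ.1 hζ.2
      have c4 : cj (wy c3 * (wy b3)⁻¹) ξ = ζ * β * ζ := by
        have := cj_wy b3 hβq.toQ0.mem_RS
        rw [b3.aba] at this
        have d1 : cj (wy b3)⁻¹ (-ξ) = β := by rw [← this, cj_inv_cj]
        rw [← neg_inj, ← cj_neg, ← cj_cj, d1, cj_wy c3 (hυ.RS_eq c1 c2 ▸ b1)]
      have c5 : wy c3 * (wy b3)⁻¹ ∈ RT G := mul_mem (sup_le (RG_le_RT hχ) (RG_le_RT hυ) (repK_mem c3 hζ.1 c1 _))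
        (inv_mem (sup_le (RG_le_RT hχ) (RG_le_RT hυ) (repK_mem b3 hξ.1 b1 _)))
      exact ⟨⟨c0, fun e => (ne ζ hζ.1 ζ hζ.1 e).elim hζ.2 hζ.2⟩, _, ⟨hN c5, hχ.RG_eq hξ.1 hξ.2 ▸
        norm_of_cj_mem hξq (hG (hN c5)) (c4 ▸ e0 ▸ c0)⟩, c4⟩
    · have := comm_RS hk hξq hβq b3 (e0 ▸ hζ.1) (e0 ▸ hζ'.1)
      refine (ne _ (sub_mem hζ'.1 hζ.1) _ (add_mem hζ'.1 hζ.1) ?_).imp sub_eq_zero.1 eq_neg_of_add_eq_zero_left
      simp only [sub_mul, mul_add] at e ⊢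
      rw [e, this]; abel
  rcases two_classes (S := {ξ | ξ ∈ RS G χ ∧ ξ ≠ 0}) (Set.toFinite _) (r := fun x y => ∃ n ∈ K, cj n x = y)
    (fun _ _ ⟨n, hn, e⟩ => ⟨n⁻¹, inv_mem hn, by rw [← e, cj_inv_cj]⟩)
    (fun _ _ _ ⟨n, hn, e⟩ ⟨m, hm, e'⟩ => ⟨m * n, mul_mem hm hn, by rw [← cj_cj, e, e']⟩) hf
    (a := χ) (b := cj g χ) (c := cj g (cj g χ)) ⟨hχ.toQ0.mem_RS, hχ.ne⟩ ⟨h1, h2⟩
    ⟨cj_mem_of_norm hg' h1, cj_eq_zero.not.2 h2⟩ with h | ⟨n, hn, e⟩ | ⟨n, hn, e⟩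
  · exact h
  · exact ⟨_, hK' n hn, by rw [← cj_cj, ← cj_cj, e, cj_inv_cj]⟩
  · obtain ⟨m, hm⟩ := exists_pow_eq_self_of_coprime (x := g) (n := 2) (Nat.coprime_two_left.2 ho)
    suffices ∀ m : ℕ, ∃ n ∈ K, cj n χ = cj ((g ^ 2) ^ m) χ from hm ▸ this m
    intro m
    induction m with
    | zero => exact ⟨1, one_mem _, by simp⟩
    | succ m ih =>
      obtain ⟨n', h3, h4⟩ := ih
      refine ⟨_, mul_mem (hK _ (hK _ h3)) hn, ?_⟩
      rw [← cj_cj, e, pow_succ', ← cj_cj (g ^ 2), ← h4, cj_cj, cj_cj, cj_cj]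
      congr 1
      rw [sq]; group

omit hχ hυ ht

theorem hasSection_psl [Finite (End k M)] [CharP k p] (h3 : 3 ≤ p) (hI : HypI G) (hA : A ≤ G) (hN : N ≤ G)
    (hn : A ≤ Subgroup.normalizer (N : Set (End k M)ˣ)) (hN' : RT G ≤ N) (hc : (Nat.card A).Coprime (Nat.card N))
    (hα : Q0 G α) (h0 : α ≠ 0) :
    PLocal.HasSection (Matrix.ProjectiveSpecialLinearGroup (Fin 2) k)
      ↥(N ⊓ Subgroup.centralizer (A : Set (End k M)ˣ)) := by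
  obtain ⟨ρ, hρ⟩ := exists_qd hα h0
  obtain ⟨ρ', hρ', ht₀⟩ := exists_trip' hk hI hρ
  have h2 : ¬ 2 ∣ Nat.card A := fun e => by
    have h1 : orderOf (repK ht₀ (-1)) = 2 := orderOf_eq_prime (by rw [← map_pow]; simp) fun e => by
      have : (-1 : SL(2, k)) ∈ (repK ht₀).ker := e
      rw [repK_ker ht₀ hρ.ne, Subgroup.mem_bot] at this
      have := congrArg (fun g : SL(2, k) => g 0 0) this
      simp only [Matrix.SpecialLinearGroup.coe_neg, Matrix.neg_apply, one_00] at this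
      exact hk.two (by linear_combination -this)
    exact absurd (Nat.eq_one_of_dvd_coprimes hc e (h1 ▸ Subgroup.orderOf_dvd_natCard N (hN'
      (sup_le (RG_le_RT hρ) (RG_le_RT hρ') (repK_mem ht₀ hρ.toQ0.mem_RS hρ'.toQ0.mem_RS _))))) (by decide)
  have hs := Coprime.isSolvable_of_not_two_dvd h2
  obtain ⟨χ, υ, hχ, hυ, ht, -, hd⟩ := exists_fixed_pair hk hI h3 hρ hA hs (hc.coprime_dvd_right (by
    rw [← orderOf_eq_prime (un_pow h3 hρ.sq) (un_ne_one _ hρ.ne)]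
    exact Subgroup.orderOf_dvd_natCard N (hN' (RG_le_RT hρ (un_mem_RG hρ.toQ0.mem_RS)))))
    (hc.coprime_dvd_right (Subgroup.card_dvd_of_le hN'))
  set A₁ := A ⊓ (Fx (χ * υ) ⊓ Fx (υ * χ))
  have h4 : A₁ ≤ Subgroup.normalizer (RG G χ : Set (End k M)ˣ) := fun a ha =>
    norm_of_cj_mem hχ (hA ha.1) (mem_RS hχ.sq (hχ.toQ0.conj (hA ha.1))
      (by rw [← range_trip (Trip.cj ht a), ← cj_mul, ha.2.1, range_trip ht])
      (by rw [← ker_trip (Trip.cj ht a), ← cj_mul, ha.2.2, ker_trip ht]))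
  obtain ⟨n, hn', e⟩ := Coprime.exists_conj_mem_of_subset_mul (B := A₁)
    (N := N ⊓ Subgroup.normalizer (RG G χ : Set (End k M)ˣ)) (S := Fx χ)
    (Core.le_normalizer_inf (inf_le_left.trans hn) (h4.trans Subgroup.le_normalizer))
    ((hc.coprime_dvd_left (Subgroup.card_dvd_of_le inf_le_left)).coprime_dvd_right (Subgroup.card_dvd_of_le inf_le_left))
    (Or.inl (Group.isSolvable_of_isSolvable_injective (Subgroup.inclusion_injective inf_le_left))) fun a ha => by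
      obtain ⟨n, h5, h6⟩ := exists_cj_eq hk hχ hυ ht hN' hN (hn ha.1) (h4 ha) (Nat.odd_iff.2 (Nat.two_dvd_ne_zero.1
        fun e => h2 (e.trans (Subgroup.orderOf_dvd_natCard A ha.1))))
      refine ⟨n⁻¹, inv_mem h5, ?_⟩
      change cj _ χ = χ
      rw [← cj_cj, ← h6, cj_inv_cj]
  have h5 := cj_mem_of_norm hn'.2 hχ.toQ0.mem_RS
  have h6 : cj n χ ≠ 0 := cj_eq_zero.not.2 hχ.ne
  obtain ⟨β, b1, -, b3, b4, b5⟩ := exists_partner_mem hk hχ hυ ht h5 h6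
  have hL : (repK b3).range ≤ CG G χ := by
    rintro _ ⟨g, rfl⟩
    exact sup_le (RG_le_CG hχ) (CG_eq hk hI hχ hυ ht ▸ RG_le_CG hυ) (repK_mem b3 h5 b1 g)
  have hx : ∀ a ∈ A, Z0 χ υ a → a ∈ Subgroup.centralizer ((repK b3).range : Set (End k M)ˣ) := by
    rintro a ha h _ ⟨g, rfl⟩
    have c1 : cj a (cj n χ) = cj n χ := by
      have : cj (n⁻¹ * a * n) χ = χ := e a ⟨ha, cj_eq_iff.2 h.a, cj_eq_iff.2 h.b⟩
      conv_rhs => rw [← this]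
      rw [cj_cj, cj_cj]; congr 1; group
    have c2 : cj a β = β := by
      simpa using partner_smul b3 ⟨b4 ▸ h.a, b5 ▸ h.b⟩ one_ne_zero (by simpa using c1)
    exact Units.ext (cj_eq_iff.1 (cj_repK b3 (cj_eq_iff.1 c1) (cj_eq_iff.1 c2) g))
  obtain ⟨t, t1, t2, t3⟩ := PLocal.exists_trace (X := A) (L := (repK b3).range) fun a ha =>
    (hd a ha).imp (fun h => hx a ha h.2) fun h => cm_iff_le.1 (h.mono (conj_mono a hL) hL)
  refine hasSection_of_ker_le ((t.comp (repK b3).rangeRestrict).codRestrict _ fun g =>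
    ⟨t3 N hn _ (hN' (comp_le (hL ⟨g, rfl⟩))), t1 _⟩) (QuotientGroup.mk' _) (QuotientGroup.mk'_surjective _) fun g hg => ?_
  rw [QuotientGroup.ker_mk', Subgroup.mem_center_iff]
  intro g'
  have c1 : t ((repK b3).rangeRestrict g) = 1 := congrArg Subtype.val hg
  have c2 := t2 ((repK b3).rangeRestrict g)
  rw [c1, mul_one, inv_mem_iff] at c2
  apply (MonoidHom.ker_eq_bot_iff _).1 (repK_ker b3 h6)
  rw [map_mul, map_mul]
  exact c2 _ ⟨g', rfl⟩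

end Cfsg.Lib.EQ
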