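import Cfsg.Agent.Lib.EQ.SL
import Cfsg.Agent.Lib.EQ.KZ
import Cfsg.Agent.Lib.PLocal.ZJ

/-! The `ZJ`-theorem for a group with a coprime operator group whose fixed points do not involve `PSL₂(p)`. -/

set_option autoImplicit false

namespace Cfsg.Lib.EQ
open Cfsg.Lib.QuadPair Cfsg.Lib.PLocal Cfsg.Lib.Transfer Cfsg.Lib.Root Module LinearMap Subgroup
open scoped Cfsg.Lib.Transfer commutatorElement MatrixGroups

variable {X : Type*} [Group X] [Finite X] {p : ℕ} [hp : Fact p.Prime] {N A : Subgroup X}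

theorem isPStableOn_of_no_psl (h5 : 5 ≤ p) [N.Normal] (htop : N ⊔ A = ⊤) (hc : (Nat.card A).Coprime (Nat.card N))
    (hp' : (Nat.card A).Coprime p)
    (hs : ¬ HasSection (Matrix.ProjectiveSpecialLinearGroup (Fin 2) (ZMod p)) ↥(N ⊓ centralizer (A : Set X)))
    {V : Subgroup X} [V.Normal] (hV : Core.IsMinNormal V) (hV' : IsElementaryAbelian p V) : IsPStableOn p V := by
  intro a ha
  obtain ⟨n, ρ, h1, h2, h3⟩ := exists_rep hV'
  have : Finite (End (ZMod p) (Fin n → ZMod p)) := Finite.of_injective _ DFunLike.coe_injective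
  by_cases h0 : (ρ a : End (ZMod p) (Fin n → ZMod p)) - 1 = 0
  · rw [(QuotientGroup.eq_one_iff a).2 (h1 ▸ (Units.ext (sub_eq_zero.1 h0) : ρ a = 1))]
    exact one_mem _
  refine absurd ?_ hs
  have d1 := card_map_dvd N ρ
  have d2 := card_map_dvd A ρ
  have hG : ρ.range = N.map ρ ⊔ A.map ρ := by rw [← Subgroup.map_sup, htop, MonoidHom.range_eq_map]
  have hn : A.map ρ ≤ normalizer (N.map ρ : Set _) := (map_mono le_normalizer_of_normal).trans (le_normalizer_map ρ)
  have hN' : RT ρ.range ≤ N.map ρ := iSup₂_le fun B hB g hg => by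
    obtain ⟨β, -, rfl⟩ := mem_roots_iff.1 hB
    have := mem_of_pow_eq_one hn (hp'.coprime_dvd_left d2) (hG.le (RS_q0 hg).un_mem) (un_pow (by omega) _)
    rwa [show un (RS_q0 hg).sq = g from Units.ext (by simp)] at this
  have := hasSection_psl (big_zmod h5) (by omega : 3 ≤ p) (h3 hV) (map_le_range ρ A) (map_le_range ρ N) hn hN'
    ((hc.coprime_dvd_left d2).coprime_dvd_right d1)
    (q0_of_mem (h2 a ha) (by rw [show un (h2 a ha) = ρ a from Units.ext (by simp)]; exact ⟨a, rfl⟩)) h0
  rw [Coprime.map_inf_centralizer_map' ρ le_normalizer_of_normal hc (Coprime.isSolvable_or_of_coprime hc)] at this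
  exact this.of_map

theorem normalStable_of_no_psl (h5 : 5 ≤ p) [N.Normal] (htop : N ⊔ A = ⊤) (hc : (Nat.card A).Coprime (Nat.card N))
    (hp' : (Nat.card A).Coprime p)
    (hs : ¬ HasSection (Matrix.ProjectiveSpecialLinearGroup (Fin 2) (ZMod p)) ↥(N ⊓ centralizer (A : Set X))) :
    NormalStable p X := normalStable_of_isPStableOn fun _ _ hP => isPStableOn_of_forall_quotient hP
      fun K _ _ V _ hV _ hV' => by
  have d1 := card_map_dvd N (QuotientGroup.mk' K)
  have d2 := card_map_dvd A (QuotientGroup.mk' K)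
  have := ‹N.Normal›.map _ (QuotientGroup.mk'_surjective K)
  refine isPStableOn_of_no_psl (N := N.map (QuotientGroup.mk' K)) (A := A.map (QuotientGroup.mk' K)) h5
    (by rw [← Subgroup.map_sup, htop, map_top_of_surjective _ (QuotientGroup.mk'_surjective K)])
    ((hc.coprime_dvd_left d2).coprime_dvd_right d1) (hp'.coprime_dvd_left d2) (fun h => hs ?_) hV hV'
  rw [Coprime.map_inf_centralizer_map' _ le_normalizer_of_normal hc (Coprime.isSolvable_or_of_coprime hc)] at h
  exact h.of_map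

theorem centerThompsonOf_normal_of_no_psl (h5 : 5 ≤ p) [N.Normal] (htop : N ⊔ A = ⊤)
    (hc : (Nat.card A).Coprime (Nat.card N)) (hp' : (Nat.card A).Coprime p)
    (hs : ¬ HasSection (Matrix.ProjectiveSpecialLinearGroup (Fin 2) (ZMod p)) ↥(N ⊓ centralizer (A : Set X)))
    (hC : N ⊓ centralizer (pCore p X : Set X) ≤ pCore p X) {e : ℕ} (he : e = 0 ∨ e = p) (S : Sylow p X) :
    (centerThompsonOf e (S : Subgroup X)).Normal := by
  have hst := normalStable_of_no_psl h5 htop hc hp' hs
  have h := inf_centerThompsonOf_normal (by omega) he hst S (isStronglyClosed_self _)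
  have hZ := S.isPGroup'.to_le (centerThompsonOf_le (e := e) (S : Subgroup X))
  suffices H : centerThompsonOf e (S : Subgroup X) ≤ pCore p X by rwa [inf_eq_left.2 H] at h
  intro a ha
  have h1 := (hst _ inferInstance (Core.pCore_isPGroup p X) _ hZ (quadratic_of_le_normalizer
    (isMulCommutative_centerThompsonOf _) ((Core.pCore_le_sylow S).trans
      (le_normalizer.trans (normalizer_le_normalizer_centerThompsonOf _)))) a ha)
  obtain ⟨M, h2, -, h3, h4⟩ := h1
  have := Core.normal_of_top_le_normalizer h3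
  refine Core.le_pCore (N := M ⊓ N) inferInstance (Core.isPGroup_subgroup_iff.2 fun x hx => ?_)
    ⟨h2, le_of_isPGroup_sup le_normalizer_of_normal hp' hZ (htop ▸ le_top) ha⟩
  obtain ⟨k, hk⟩ := h4 x hx.1
  obtain ⟨l, hl⟩ := Core.isPGroup_subgroup_iff.1 (Core.pCore_isPGroup p X) _ (hC ⟨N.pow_mem hx.2 _, hk⟩)
  exact ⟨k + l, by rwa [pow_add, pow_mul]⟩

theorem zj_of_hom (h5 : 5 ≤ p) {G : Type*} [Group G] [Finite G] (π : G →* X) [π.range.Normal]
    (hk : π.ker = pPrimeCore p G) (htop : π.range ⊔ A = ⊤) (hc : (Nat.card A).Coprime (Nat.card π.range))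
    (hp' : (Nat.card A).Coprime p)
    (hs : ¬ HasSection (Matrix.ProjectiveSpecialLinearGroup (Fin 2) (ZMod p)) ↥(π.range ⊓ centralizer (A : Set X)))
    (hG : IsPConstrained p G) {e : ℕ} (he : e = 0 ∨ e = p) (S : Sylow p G) :
    pPrimeCore p G ⊔ normalizer (centerThompsonOf e (S : Subgroup G) : Set G) = ⊤ := by
  have hk' : π.rangeRestrict.ker = pPrimeCore p G := by rw [MonoidHom.ker_rangeRestrict, hk]
  have hkc : (Nat.card π.rangeRestrict.ker).Coprime p := hk' ▸ Core.pPrimeCore_coprime p G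
  have h0 : pPrimeCore p π.range = ⊥ := by
    rw [← Core.map_pPrimeCore_eq π.rangeRestrict_surjective hkc, Subgroup.map_eq_bot_iff, hk']
  have h1 := (Core.isPConstrained_iff_of_pPrimeCore_eq_bot h0).1
    ((Core.isPConstrained_iff_of_coprime_ker π.rangeRestrict_surjective hkc).2 hG)
  have h2 : pCoreOf p π.range ≤ pCore p X := Core.pCoreOf_le_pCore _
  obtain ⟨T, hT⟩ : ∃ T : Sylow p X, (T : Subgroup X) = (S : Subgroup G).map π := by
    obtain ⟨T, hT⟩ := (S.isPGroup'.map π).exists_le_sylow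
    have := not_dvd_relIndex_map_sylow (S.mapSurjective π.rangeRestrict_surjective)
    rw [Sylow.coe_mapSurjective, map_map] at this
    exact ⟨T, (eq_of_not_dvd_relIndex_of_le this T.isPGroup' (le_of_isPGroup_sup le_normalizer_of_normal hp'
      T.isPGroup' (htop ▸ le_top)) hT).symm⟩
  have h3 := centerThompsonOf_normal_of_no_psl h5 htop hc hp' hs (fun x hx => h2 (mem_map_of_mem π.range.subtype
    (x := ⟨x, hx.1⟩) (h1 fun y hy => Subtype.ext (hx.2 _ (h2 (mem_map_of_mem _ hy)))))) he T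
  rw [hT, ← map_centerThompsonOf_of_inf_ker (hk ▸ Core.inf_pPrimeCore_eq_bot S.isPGroup')] at h3
  rw [← hk']
  refine ker_sup_normalizer_eq_top π.rangeRestrict_surjective hkc (S.isPGroup'.to_le (centerThompsonOf_le _)) ?_
  rw [← comap_map_eq_self_of_injective π.range.subtype_injective (map _ _), map_map]
  exact h3.comap _

end Cfsg.Lib.EQ
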